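import Cfsg.Agent.CIT.Act
import Mathlib.GroupTheory.QuotientGroup.Basic
import Mathlib.GroupTheory.Subgroup.Simple
import Mathlib.Algebra.Module.End
import Mathlib.Algebra.Group.TypeTags.Hom

/-!
Abelian 2-groups acted on without fixed points for the elements of odd order.
-/

set_option autoImplicit false

namespace Cfsg.Agent.CIT38

open CIT

variable {X A : Type*} [Group X] [AddCommGroup A]

/-- The elements of odd order fix only zero. -/
def IsFpf {X A : Type*} [Group X] [AddZeroClass A] (ρ : X →* AddMonoid.End A) : Prop :=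
  ∀ x : X, Odd (orderOf x) → x ≠ 1 → ∀ a : A, ρ x a = a → a = 0

/-- Every element has exponent two. -/
def Exp2 (A : Type*) [AddCommGroup A] : Prop := ∀ a : A, a + a = 0

/-- A biadditive equivariant map. -/
def IsEquiv2 {B C : Type*} [AddCommGroup B] [AddCommGroup C] (ρ : X →* AddMonoid.End A)
    (σ : X →* AddMonoid.End B) (τ : X →* AddMonoid.End C) (b : A →+ B →+ C) : Prop :=
  ∀ x a a', b (ρ x a) (σ x a') = τ x (b a a')

theorem ρ_mul (ρ : X →* AddMonoid.End A) (x y : X) (a : A) : ρ (x * y) a = ρ x (ρ y a) := by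
  rw [map_mul]; rfl

theorem ρ_one (ρ : X →* AddMonoid.End A) (a : A) : ρ 1 a = a := by rw [map_one]; rfl

theorem ρ_inv_apply (ρ : X →* AddMonoid.End A) (x : X) (a : A) : ρ x⁻¹ (ρ x a) = a := by
  rw [← ρ_mul, inv_mul_cancel, ρ_one]

theorem ρ_apply_inv (ρ : X →* AddMonoid.End A) (x : X) (a : A) : ρ x (ρ x⁻¹ a) = a := by
  rw [← ρ_mul, mul_inv_cancel, ρ_one]

theorem Exp2.self_neg (h : Exp2 A) (a : A) : -a = a := neg_eq_of_add_eq_zero_left (h a)

theorem Exp2.sub_eq (h : Exp2 A) (a b : A) : a - b = a + b := by rw [sub_eq_add_neg, h.self_neg]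

theorem Exp2.eq_of_add (h : Exp2 A) {a b : A} (e : a + b = 0) : a = b := by
  rw [eq_neg_of_add_eq_zero_left e, h.self_neg]

theorem Exp2.nsmul (h : Exp2 A) (a : A) : 2 • a = 0 := by rw [two_nsmul]; exact h a

theorem IsFpf.sum_eq_zero {ρ : X →* AddMonoid.End A} (h : IsFpf ρ) {x : X} {n : ℕ} (hn : Odd n)
    (hx : x ^ n = 1) (hx1 : x ≠ 1) (a : A) : ∑ j ∈ Finset.range n, ρ (x ^ j) a = 0 := by
  refine h x (hn.of_dvd_nat (orderOf_dvd_of_pow_eq_one hx)) hx1 _ ?_
  rw [map_sum]
  have h1 : ∀ j, ρ x (ρ (x ^ j) a) = ρ (x ^ (j + 1)) a := fun j => by rw [← ρ_mul, ← pow_succ']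
  simp only [h1]
  have h2 := Finset.sum_range_succ (fun j => ρ (x ^ j) a) n
  rw [Finset.sum_range_succ' (fun j => ρ (x ^ j) a) n, hx, pow_zero] at h2
  exact add_right_cancel h2

theorem IsFpf.three {ρ : X →* AddMonoid.End A} (h : IsFpf ρ) {x : X} (hx : x ^ 3 = 1) (hx1 : x ≠ 1)
    (a : A) : a + ρ x a + ρ x (ρ x a) = 0 := by
  have := h.sum_eq_zero (n := 3) ⟨1, rfl⟩ hx hx1 a
  simpa [Finset.sum_range_succ, pow_succ, ρ_mul, ρ_one] using this

section Invariant

variable (ρ : X →* AddMonoid.End A) (U : AddSubgroup A)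

/-- An invariant subgroup. -/
def Invar : Prop := ∀ x, ∀ a ∈ U, ρ x a ∈ U

variable {ρ U} (hU : Invar ρ U)

/-- The action on an invariant subgroup. -/
def res : X →* AddMonoid.End U where
  toFun x := (((ρ x).comp U.subtype).codRestrict U fun a => hU x a a.2 : U →+ U)
  map_one' := by
    refine AddMonoidHom.ext fun a => Subtype.ext ?_
    exact ρ_one ρ a
  map_mul' x y := by
    refine AddMonoidHom.ext fun a => Subtype.ext ?_
    exact ρ_mul ρ x y a

theorem res_coe (x : X) (a : U) : ((res hU x a : U) : A) = ρ x a := rfl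

/-- The action on the quotient by an invariant subgroup. -/
def quo : X →* AddMonoid.End (A ⧸ U) where
  toFun x := QuotientAddGroup.map U U (ρ x) fun a ha => hU x a ha
  map_one' := by
    refine AddMonoidHom.ext fun q => ?_
    obtain ⟨a, rfl⟩ := QuotientAddGroup.mk_surjective q
    exact congrArg (QuotientAddGroup.mk (s := U)) (ρ_one ρ a)
  map_mul' x y := by
    refine AddMonoidHom.ext fun q => ?_
    obtain ⟨a, rfl⟩ := QuotientAddGroup.mk_surjective q
    exact congrArg (QuotientAddGroup.mk (s := U)) (ρ_mul ρ x y a)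

theorem quo_mk (x : X) (a : A) : quo hU x (a : A ⧸ U) = ((ρ x a : A) : A ⧸ U) := rfl

theorem IsFpf.res (h : IsFpf ρ) : IsFpf (res hU) := fun x ho hx a e =>
  Subtype.ext (h x ho hx a (congrArg Subtype.val e))

theorem IsFpf.quo (h : IsFpf ρ) (h2 : ∀ a : A, ∃ k : ℕ, 2 ^ k • a = 0) : IsFpf (quo hU) := by
  intro x ho hx q e
  obtain ⟨a, rfl⟩ := QuotientAddGroup.mk_surjective q
  have h1 : ∀ j : ℕ, ((ρ (x ^ j) a : A) : A ⧸ U) = (a : A ⧸ U) := by
    intro j
    induction j with
    | zero => rw [pow_zero, ρ_one]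
    | succ j ih => rw [pow_succ', ρ_mul, ← quo_mk hU, ih, e]
  have hs := h.sum_eq_zero ho (pow_orderOf_eq_one x) hx a
  have h3 : orderOf x • ((a : A) : A ⧸ U) = 0 := by
    have := congrArg (QuotientAddGroup.mk' U) hs
    rw [map_sum, map_zero] at this
    simp only [QuotientAddGroup.mk'_apply, h1, Finset.sum_const, Finset.card_range] at this
    exact this
  obtain ⟨k, hk⟩ := h2 a
  have h4 : 2 ^ k • ((a : A) : A ⧸ U) = 0 := by rw [← QuotientAddGroup.mk_nsmul, hk]; rfl
  have := addOrderOf_dvd_of_nsmul_eq_zero h3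
  have h5 := addOrderOf_dvd_of_nsmul_eq_zero h4
  exact AddMonoid.addOrderOf_eq_one_iff.mp (Nat.eq_one_of_dvd_coprimes
    (Nat.Coprime.pow_left k (Nat.coprime_two_left.mpr ho)) h5 this)

end Invariant

theorem IsFpf.injective [IsSimpleGroup X] {ρ : X →* AddMonoid.End A} (h : IsFpf ρ) [Nontrivial A]
    {w : X} (ho : Odd (orderOf w)) (hw : w ≠ 1) : Function.Injective ρ := by
  rw [← MonoidHom.ker_eq_bot_iff]
  refine (Subgroup.Normal.eq_bot_or_eq_top inferInstance).resolve_right fun htop => ?_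
  obtain ⟨a, ha⟩ := exists_ne (0 : A)
  refine ha (h w ho hw a ?_)
  have hm : w ∈ ρ.ker := htop ▸ Subgroup.mem_top w
  rw [MonoidHom.mem_ker.mp hm]; rfl

/-- The action in multiplicative form. -/
def mulForm (ρ : X →* AddMonoid.End A) : X →* MulAut (Multiplicative A) where
  toFun x :=
    { toFun := fun a => Multiplicative.ofAdd (ρ x a.toAdd)
      invFun := fun a => Multiplicative.ofAdd (ρ x⁻¹ a.toAdd)
      left_inv := fun a => congrArg Multiplicative.ofAdd (ρ_inv_apply ρ x a.toAdd)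
      right_inv := fun a => congrArg Multiplicative.ofAdd (ρ_apply_inv ρ x a.toAdd)
      map_mul' := fun a b => congrArg Multiplicative.ofAdd (map_add (ρ x) a.toAdd b.toAdd) }
  map_one' := MulEquiv.ext fun a => congrArg Multiplicative.ofAdd (ρ_one ρ a.toAdd)
  map_mul' x y := MulEquiv.ext fun a => congrArg Multiplicative.ofAdd (ρ_mul ρ x y a.toAdd)

theorem IsFpf.act [IsSimpleGroup X] (hC : IsCIT X) {ρ : X →* AddMonoid.End A} (h : IsFpf ρ)
    (h2 : Exp2 A) [Nontrivial A] {w : X} (ho : Odd (orderOf w)) (hw : w ≠ 1) :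
    Act (mulForm ρ) where
  exp a := congrArg Multiplicative.ofAdd (h2 a.toAdd)
  inj x y e := h.injective ho hw (AddMonoidHom.ext fun a =>
    congrArg Multiplicative.toAdd (DFunLike.congr_fun e (Multiplicative.ofAdd a)))
  fpf x ho' hx a e := congrArg Multiplicative.ofAdd (h x ho' hx a.toAdd (congrArg Multiplicative.toAdd e))
  cit := hC

/-- Automorphisms as additive endomorphisms. -/
def autEnd (K : Type*) [Group K] : MulAut K →* AddMonoid.End (Additive K) where
  toFun φ := MonoidHom.toAdditive φ.toMonoidHom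
  map_one' := AddMonoidHom.ext fun _ => rfl
  map_mul' _ _ := AddMonoidHom.ext fun _ => rfl

/-- Conjugation on an abelian normal subgroup, in additive form. -/
def conjEnd {G : Type*} [Group G] (K : Subgroup G) [K.Normal] :
    G →* AddMonoid.End (Additive K) := (autEnd K).comp (MulAut.conjNormal (H := K))

theorem conjEnd_apply {G : Type*} [Group G] (K : Subgroup G) [K.Normal] (g : G) (a : Additive K) :
    (((conjEnd K g a).toMul : K) : G) = g * (a.toMul : K) * g⁻¹ := MulAut.conjNormal_apply g a.toMul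

end Cfsg.Agent.CIT38

namespace Cfsg.Agent.CIT38

universe u v

/-- All equivariant pairings between fixed-point-free elementary modules vanish. -/
def NoPair (X : Type v) [Group X] : Prop :=
  ∀ (V Z : Type u) [AddCommGroup V] [AddCommGroup Z] [Finite V] [Finite Z]
    (ρ : X →* AddMonoid.End V) (σ : X →* AddMonoid.End Z) (b : V →+ V →+ Z),
    IsFpf ρ → IsFpf σ → Exp2 V → Exp2 Z → IsEquiv2 ρ ρ σ b → ∀ v w, b v w = 0

/-- A fixed-point-free module of exponent four has exponent two. -/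
def NoFour (X : Type v) [Group X] : Prop :=
  ∀ (A : Type u) [AddCommGroup A] [Finite A] (ρ : X →* AddMonoid.End A),
    IsFpf ρ → (∀ a : A, 4 • a = 0) → Exp2 A

end Cfsg.Agent.CIT38
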