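import Cfsg.Agent.CIT38.Modules
import Cfsg.Agent.Lib.MinimalNormal
import Cfsg.Agent.PGroup.Basic

/-!
The radical is elementary abelian once pairings and exponent four are excluded.
-/

set_option autoImplicit false

universe u v

namespace Cfsg.Agent.CIT38

open Subgroup CIT
open scoped commutatorElement

section Section

variable {G : Type u} [Group G] [Finite G] {X : Type v} [Group X] {f : G →* X}
  (hf : Function.Surjective f) (K : Subgroup G) [K.Normal]
  (hK : ∀ r ∈ f.ker, ∀ k ∈ K, r * k = k * r)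
include hK

omit [Finite G] in
theorem ker_le_conjNormal : f.ker ≤ (MulAut.conjNormal (H := K)).ker := by
  intro r hr
  refine MonoidHom.mem_ker.mpr (MulEquiv.ext fun a => Subtype.ext ?_)
  rw [MulAut.conjNormal_apply, hK r hr _ a.2, mul_inv_cancel_right]
  rfl

include hf in
/-- The action of the quotient on a section centralised by the kernel. -/
noncomputable def secAct : X →* AddMonoid.End (Additive K) :=
  (autEnd K).comp (f.liftOfSurjective hf ⟨MulAut.conjNormal (H := K), ker_le_conjNormal K hK⟩)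

omit [Finite G] in
theorem secAct_apply (g : G) (a : Additive K) :
    (((secAct hf K hK (f g) a).toMul : K) : G) = g * (a.toMul : K) * g⁻¹ := by
  rw [secAct, MonoidHom.comp_apply, MonoidHom.liftOfRightInverse_comp_apply]
  exact MulAut.conjNormal_apply g a.toMul

theorem secAct_fpf (hC : IsCIT G) (hK2 : IsPGroup 2 K) : IsFpf (secAct hf K hK) := by
  intro x ho hx a e
  obtain ⟨g, rfl⟩ := hf x
  obtain ⟨k, m, hm, hkm⟩ := Nat.exists_eq_two_pow_mul_odd (orderOf_pos g).ne'
  have hcop : (2 ^ k).Coprime (orderOf (f g)) :=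
    Nat.Coprime.pow_left _ (Nat.coprime_two_left.mpr ho)
  obtain ⟨i, hi⟩ := exists_pow_eq_self_of_coprime hcop
  set w := (g ^ 2 ^ k) ^ i with hw
  have hfw : f w = f g := by rw [hw, map_pow, map_pow]; exact hi
  have hwo : Odd (orderOf w) := by
    refine Odd.of_dvd_nat hm ((orderOf_pow_dvd i).trans ?_)
    rw [orderOf_pow' g (by positivity), hkm, Nat.gcd_eq_right (dvd_mul_right _ _),
      Nat.mul_div_cancel_left _ (by positivity)]
  have h1 := secAct_apply hf K hK w a
  rw [hfw, e] at h1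
  by_contra ha
  have h2 : ((a.toMul : K) : G) ≠ 1 := fun e' => ha (Additive.toMul.injective (Subtype.ext e'))
  refine hx (hfw ▸ ?_)
  rw [hC.eq_one_of_commute (two_of_mem hK2 (a.toMul : K).2) h2 hwo
    (eq_mul_inv_iff_mul_eq.mp h1).symm, map_one]

end Section

/-- No pairing and no exponent four: the kernel is elementary abelian. -/
theorem exp_two_of_noFour {G : Type u} [Group G] [Finite G] {X : Type v} [Group X] (hC : IsCIT G)
    {f : G →* X} (hf : Function.Surjective f) (h2 : IsPGroup 2 f.ker) (hF : NoFour.{u} X)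
    (hab : ∀ r ∈ f.ker, ∀ s ∈ f.ker, r * s = s * r) : ∀ r ∈ f.ker, r * r = 1 := by
  set R := f.ker with hR
  haveI : IsMulCommutative R := ⟨⟨fun a b => Subtype.ext (hab _ a.2 _ b.2)⟩⟩
  let pw : ℕ → Subgroup G := fun n =>
    { carrier := {x | ∃ r ∈ R, r ^ n = x}
      one_mem' := ⟨1, one_mem R, one_pow n⟩
      mul_mem' := by
        rintro _ _ ⟨r, hr, rfl⟩ ⟨s, hs, rfl⟩
        exact ⟨r * s, mul_mem hr hs, (show Commute r s from hab r hr s hs).mul_pow n⟩
      inv_mem' := by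
        rintro _ ⟨r, hr, rfl⟩
        exact ⟨r⁻¹, inv_mem hr, inv_pow r n⟩ }
  haveI : (pw 4).Normal := ⟨by
    rintro _ ⟨r, hr, rfl⟩ g
    exact ⟨g * r * g⁻¹, (inferInstance : f.ker.Normal).conj_mem r hr g, conj_pow⟩⟩
  have hle : pw 4 ≤ R := by rintro _ ⟨r, hr, rfl⟩; exact pow_mem hr 4
  set Q := G ⧸ pw 4
  set fQ : Q →* X := QuotientGroup.lift (pw 4) f hle with hfQ
  have hfQs : Function.Surjective fQ := fun x => by
    obtain ⟨g, rfl⟩ := hf x; exact ⟨g, rfl⟩
  have hCQ : IsCIT Q := hC.quotient (h2.to_le hle)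
  set K := fQ.ker with hKdef
  have hKmk : ∀ k ∈ K, ∃ r ∈ R, (r : Q) = k := by
    intro k hk
    obtain ⟨g, rfl⟩ := QuotientGroup.mk_surjective k
    exact ⟨g, hk, rfl⟩
  have hKc : ∀ r ∈ fQ.ker, ∀ k ∈ K, r * k = k * r := by
    intro r hr k hk
    obtain ⟨a, ha, rfl⟩ := hKmk r hr
    obtain ⟨b, hb, rfl⟩ := hKmk k hk
    rw [← QuotientGroup.mk_mul, ← QuotientGroup.mk_mul, hab a ha b hb]
  haveI : IsMulCommutative K := ⟨⟨fun a b => Subtype.ext (hKc _ a.2 _ b.2)⟩⟩
  letI : AddCommGroup (Additive K) :=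
    { (inferInstance : AddGroup (Additive K)) with
      add_comm := fun a b => Additive.toMul.injective (Subtype.ext (hKc _ a.toMul.2 _ b.toMul.2)) }
  have hK2 : IsPGroup 2 K := fun k => by
    obtain ⟨a, ha, hak⟩ := hKmk k k.2
    obtain ⟨j, hj⟩ := h2 ⟨a, ha⟩
    exact ⟨j, Subtype.ext (by
      rw [SubmonoidClass.coe_pow, ← hak, ← QuotientGroup.mk_pow, show a ^ 2 ^ j = 1 from congrArg Subtype.val hj]
      rfl)⟩
  have h4 : ∀ a : Additive K, 4 • a = 0 := fun a => by
    obtain ⟨r, hr, hra⟩ := hKmk (a.toMul : K) (a.toMul : K).2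
    refine Additive.toMul.injective (Subtype.ext ?_)
    show ((a.toMul : K) : Q) ^ 4 = 1
    rw [← hra, ← QuotientGroup.mk_pow, QuotientGroup.eq_one_iff]
    exact ⟨r, hr, rfl⟩
  have hsq := hF (Additive K) (secAct hfQs K hKc) (secAct_fpf hfQs K hKc hCQ hK2) h4
  -- every square is a fourth power, so trivial
  have key : ∀ (j : ℕ) (r : G), r ∈ R → ∃ s ∈ R, s ^ 2 ^ (j + 1) = r * r := by
    intro j
    induction j with
    | zero => exact fun r hr => ⟨r, hr, by rw [pow_one, pow_two]⟩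
    | succ j ih =>
      intro r hr
      have h1 := congrArg (fun a : Additive K => ((a.toMul : K) : Q))
        (hsq (Additive.ofMul ⟨(r : Q), show f r = 1 from hr⟩))
      have h3 : r * r ∈ pw 4 := by
        rw [← QuotientGroup.eq_one_iff, QuotientGroup.mk_mul]
        exact h1
      obtain ⟨s, hs, hs4⟩ := h3
      obtain ⟨w, hw, hws⟩ := ih s hs
      refine ⟨w, hw, ?_⟩
      rw [pow_succ, pow_mul, hws, ← hs4, ← pow_two, ← pow_mul]
  intro r hr
  obtain ⟨n, hn⟩ := IsPGroup.iff_card.mp h2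
  obtain ⟨s, hs, he⟩ := key n r hr
  rw [← he]
  refine orderOf_dvd_iff_pow_eq_one.mp ((Subgroup.orderOf_dvd_natCard R hs).trans ?_)
  rw [hn]
  exact pow_dvd_pow 2 n.le_succ

/-- No pairing: the kernel is abelian. -/
theorem comm_of_noPair {G : Type u} [Group G] [Finite G] {X : Type v} [Group X] (hC : IsCIT G)
    {f : G →* X} (hf : Function.Surjective f) (h2 : IsPGroup 2 f.ker) (hP : NoPair.{u} X) :
    ∀ r ∈ f.ker, ∀ s ∈ f.ker, r * s = s * r := by
  haveI : Fact (Nat.Prime 2) := ⟨Nat.prime_two⟩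
  set R := f.ker with hR
  by_contra hne
  have hD : ⁅R, R⁆ ≠ ⊥ := fun e => hne fun r hr s hs =>
    commutatorElement_eq_one_iff_mul_comm.mp (mem_bot.mp (e ▸ commutator_mem_commutator hr hs))
  haveI : R.Normal := (inferInstance : f.ker.Normal)
  obtain ⟨N, ⟨hNn, hND⟩, hNmax⟩ := (Set.toFinite {N : Subgroup G | N.Normal ∧ N < ⁅R, R⁆}).exists_maximal
    ⟨⊥, inferInstance, bot_lt_iff_ne_bot.mpr hD⟩
  haveI := hNn
  have hle : N ≤ R := hND.le.trans (commutator_le_left R R)
  set Q := G ⧸ N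
  set fQ : Q →* X := QuotientGroup.lift N f hle with hfQ
  have hfQs : Function.Surjective fQ := fun x => by
    obtain ⟨g, rfl⟩ := hf x; exact ⟨g, rfl⟩
  have hker : fQ.ker = R.map (QuotientGroup.mk' N) := by
    ext q
    obtain ⟨g, rfl⟩ := QuotientGroup.mk_surjective q
    constructor
    · exact fun h => ⟨g, h, rfl⟩
    · rintro ⟨r, hr, he⟩
      show fQ (g : Q) = 1
      rw [← he]; exact hr
  set S := fQ.ker with hS
  have hS2 : IsPGroup 2 S := hker ▸ h2.map _
  set Z := ⁅S, S⁆ with hZ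
  have hZmap : Z = (⁅R, R⁆).map (QuotientGroup.mk' N) := by rw [hZ, hker, map_commutator]
  have hZS : Z ≤ S := commutator_le_left S S
  have hZne : Z ≠ ⊥ := by
    rw [hZmap, Ne, Subgroup.map_eq_bot_iff, QuotientGroup.ker_mk']
    exact hND.not_ge
  haveI : Z.Normal := commutator_normal S S
  have hZmin : ∀ M : Subgroup Q, M.Normal → M ≤ Z → M = ⊥ ∨ M = Z := by
    intro M hM hMZ
    set M' := M.comap (QuotientGroup.mk' N) with hM'
    have h1 : M' ≤ ⁅R, R⁆ := by
      refine (comap_mono (hMZ.trans hZmap.le)).trans ?_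
      rw [comap_map_eq, QuotientGroup.ker_mk']
      exact sup_le le_rfl hND.le
    have h3 : N ≤ M' := by
      intro x hx
      show QuotientGroup.mk' N x ∈ M
      rw [QuotientGroup.mk'_apply, (QuotientGroup.eq_one_iff x).mpr hx]
      exact one_mem M
    rcases eq_or_lt_of_le h1 with e | e
    · right
      rw [hZmap, ← e, map_comap_eq_self_of_surjective (QuotientGroup.mk'_surjective N)]
    · left
      rw [← map_comap_eq_self_of_surjective (QuotientGroup.mk'_surjective N) M, Subgroup.map_eq_bot_iff,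
        QuotientGroup.ker_mk']
      exact hNmax ⟨hM.comap _, e⟩ h3
  -- `Z` is central in `S` of exponent two
  haveI : Group.IsNilpotent S := hS2.isNilpotent
  have hZc : ∀ r ∈ S, ∀ z ∈ Z, r * z = z * r := by
    set C := (center S).map S.subtype with hC'
    haveI : C.Normal := inferInstance
    haveI : Nontrivial (Z.subgroupOf S) := (nontrivial_iff_ne_bot _).mpr fun e => hZne (by
      rw [subgroupOf_eq_bot, disjoint_iff, inf_eq_left.mpr hZS] at e; exact e)
    have h1 : Z ⊓ C ≠ ⊥ := by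
      intro e
      obtain ⟨z, hz, hz1⟩ := (Z.subgroupOf S ⊓ center S).bot_or_exists_ne_one.resolve_left
        (PGroup.inf_center_ne_bot hS2 (Z.subgroupOf S) ((nontrivial_iff_ne_bot _).mp inferInstance))
      exact hz1 (Subtype.ext (mem_bot.mp (e ▸ ⟨hz.1, z, hz.2, rfl⟩ : (z : Q) ∈ (⊥ : Subgroup Q))))
    have h3 : Z ≤ C := inf_eq_left.mp ((hZmin _ inferInstance inf_le_left).resolve_left h1)
    intro r hr z hz
    obtain ⟨c, hc, rfl⟩ := h3 hz
    exact congrArg Subtype.val (mem_center_iff.mp hc ⟨r, hr⟩)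
  haveI : Group.IsNilpotent Z := (hS2.to_le hZS).isNilpotent
  haveI : Group.IsSolvable Z := inferInstance
  obtain ⟨-, p, hp, hZp, hZpg⟩ := MinNormal.elementary_abelian Z hZne hZmin
  have hp2 : p = 2 := by
    obtain ⟨z, hz, hz1⟩ := Z.bot_or_exists_ne_one.resolve_left hZne
    obtain ⟨k, hk⟩ := two_of_mem (hS2.to_le hZS) hz
    have h1 : orderOf z ∣ p := orderOf_dvd_of_pow_eq_one (hZp z hz)
    rw [hk] at h1
    rcases Nat.eq_zero_or_pos k with rfl | hk0
    · exact absurd (orderOf_eq_one_iff.mp (by simpa using hk)) hz1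
    · exact ((Nat.prime_dvd_prime_iff_eq Nat.prime_two hp).mp ((dvd_pow_self 2 hk0.ne').trans h1)).symm
  subst hp2
  -- the Frattini quotient of `S`
  set Φ : Subgroup Q := closure {x | ∃ r ∈ S, r * r = x}
  haveI : Φ.Normal := ⟨fun x hx g => by
    have : Φ ≤ Φ.comap (MulAut.conj g).toMonoidHom := (closure_le _).2 fun _ ⟨r, hr, e⟩ =>
      subset_closure ⟨g * r * g⁻¹, (inferInstance : fQ.ker.Normal).conj_mem r hr g, by
        subst e; show g * r * g⁻¹ * (g * r * g⁻¹) = g * (r * r) * g⁻¹; group⟩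
    exact this hx⟩
  have hΦS : Φ ≤ S := (closure_le _).2 fun _ ⟨r, hr, e⟩ => e ▸ mul_mem hr hr
  set fW : Q ⧸ Φ →* X := QuotientGroup.lift Φ fQ hΦS
  have hfWs : Function.Surjective fW := fun x => by
    obtain ⟨g, rfl⟩ := hfQs x; exact ⟨g, rfl⟩
  have hCW : IsCIT (Q ⧸ Φ) := (hC.quotient (h2.to_le hle)).quotient (hS2.to_le hΦS)
  set V := fW.ker with hV
  have hVmk : ∀ v ∈ V, ∃ r ∈ S, (r : Q ⧸ Φ) = v := fun v hv => by
    obtain ⟨g, rfl⟩ := QuotientGroup.mk_surjective v
    exact ⟨g, hv, rfl⟩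
  have hVsq : ∀ v ∈ V, v * v = 1 := fun v hv => by
    obtain ⟨r, hr, rfl⟩ := hVmk v hv
    rw [← QuotientGroup.mk_mul, QuotientGroup.eq_one_iff]
    exact subset_closure ⟨r, hr, rfl⟩
  have hVc : ∀ a ∈ V, ∀ b ∈ V, a * b = b * a := fun a ha b hb => by
    calc a * b = (a * b)⁻¹ := (inv_eq_of_mul_eq_one_right (hVsq _ (mul_mem ha hb))).symm
      _ = b * a := by
        rw [mul_inv_rev, inv_eq_of_mul_eq_one_right (hVsq a ha), inv_eq_of_mul_eq_one_right (hVsq b hb)]
  letI : AddCommGroup (Additive V) :=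
    { (inferInstance : AddGroup (Additive V)) with
      add_comm := fun a b => Additive.toMul.injective (Subtype.ext (hVc _ a.toMul.2 _ b.toMul.2)) }
  letI : AddCommGroup (Additive Z) :=
    { (inferInstance : AddGroup (Additive Z)) with
      add_comm := fun a b => Additive.toMul.injective
        (Subtype.ext (hZc _ (hZS a.toMul.2) _ b.toMul.2)) }
  -- the commutator pairing
  have hmulL : ∀ r ∈ S, ∀ r' ∈ S, ∀ s ∈ S, ⁅r * r', s⁆ = ⁅r, s⁆ * ⁅r', s⁆ := by
    intro r hr r' hr' s hs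
    have hc := hZc r hr _ (commutator_mem_commutator hr' hs)
    calc ⁅r * r', s⁆ = (r * ⁅r', s⁆ * r⁻¹) * ⁅r, s⁆ := by rw [commutatorElement_def, commutatorElement_def, commutatorElement_def]; group
      _ = ⁅r', s⁆ * ⁅r, s⁆ := by rw [hc, mul_inv_cancel_right]
      _ = ⁅r, s⁆ * ⁅r', s⁆ := (hZc _ (hZS (commutator_mem_commutator hr' hs)) _ (commutator_mem_commutator hr hs))
  have hzinv : ∀ r ∈ S, ∀ s ∈ S, ⁅s, r⁆ = ⁅r, s⁆ := by
    intro r hr s hs
    rw [← commutatorElement_inv, inv_eq_of_mul_eq_one_right]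
    rw [← pow_two]; exact hZp _ (commutator_mem_commutator hr hs)
  have hΦc : ∀ s ∈ S, ∀ x ∈ Φ, ⁅x, s⁆ = 1 := by
    intro s hs x hx
    suffices hle' : Φ ≤ Φ ⊓ centralizer ({s} : Set Q) from
      commutatorElement_eq_one_iff_mul_comm.mpr (mem_centralizer_singleton_iff.mp (hle' hx).2)
    refine (closure_le _).2 ?_
    rintro _ ⟨r, hr, rfl⟩
    refine ⟨subset_closure ⟨r, hr, rfl⟩, mem_centralizer_singleton_iff.mpr
      (commutatorElement_eq_one_iff_mul_comm.mp ?_)⟩
    rw [hmulL r hr r hr s hs, ← pow_two]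
    exact hZp _ (commutator_mem_commutator hr hs)
  choose sec hsecS hsec using hVmk
  let c : Additive V → Additive V → Additive Z := fun v w => Additive.ofMul
    ⟨⁅sec (v.toMul : V) (v.toMul : V).2, sec (w.toMul : V) (w.toMul : V).2⁆,
      commutator_mem_commutator (hsecS _ _) (hsecS _ _)⟩
  have hwd : ∀ (v w : Additive V) (r s : Q), r ∈ S → s ∈ S → (r : Q ⧸ Φ) = (v.toMul : V) →
      (s : Q ⧸ Φ) = (w.toMul : V) → (((c v w).toMul : Z) : Q) = ⁅r, s⁆ := by
    intro v w r s hr hs ev ew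
    have aux : ∀ {r r' t : Q}, r ∈ S → r' ∈ S → t ∈ S → (r : Q ⧸ Φ) = r' → ⁅r, t⁆ = ⁅r', t⁆ := by
      intro r r' t hr hr' ht e
      have hd : r⁻¹ * r' ∈ Φ := QuotientGroup.eq.mp e
      calc ⁅r, t⁆ = ⁅r, t⁆ * ⁅r⁻¹ * r', t⁆ := by rw [hΦc t ht _ hd, mul_one]
        _ = ⁅r', t⁆ := by rw [← hmulL r hr _ (hΦS hd) t ht, mul_inv_cancel_left]
    show ⁅sec (v.toMul : V) _, sec (w.toMul : V) _⁆ = ⁅r, s⁆
    rw [aux (hsecS _ _) hr (hsecS _ _) ((hsec _ _).trans ev.symm), hzinv _ (hsecS _ _) _ hr,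
      aux (hsecS _ _) hs hr ((hsec _ _).trans ew.symm), hzinv _ hr _ hs]
  have haddL : ∀ v v' w, c (v + v') w = c v w + c v' w := by
    intro v v' w
    refine Additive.toMul.injective (Subtype.ext ?_)
    show _ = (((c v w).toMul : Z) : Q) * (((c v' w).toMul : Z) : Q)
    rw [hwd (v + v') w (sec _ (v.toMul : V).2 * sec _ (v'.toMul : V).2) (sec _ (w.toMul : V).2)
        (mul_mem (hsecS _ _) (hsecS _ _)) (hsecS _ _) (by rw [QuotientGroup.mk_mul, hsec, hsec]; rfl) (hsec _ _),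
      hmulL _ (hsecS _ _) _ (hsecS _ _) _ (hsecS _ _)]
    rfl
  have hsymm : ∀ v w, c v w = c w v := fun v w =>
    Additive.toMul.injective (Subtype.ext (hzinv _ (hsecS _ _) _ (hsecS _ _)))
  let b : Additive V →+ Additive V →+ Additive Z :=
    AddMonoidHom.mk' (fun v => AddMonoidHom.mk' (fun w => c v w) fun w w' => by
      rw [hsymm v, haddL, hsymm w, hsymm w']) fun v v' => AddMonoidHom.ext fun w => haddL v v' w
  have hVc' : ∀ r ∈ fW.ker, ∀ k ∈ V, r * k = k * r := fun r hr k hk => hVc r hr k hk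
  have hV2 : IsPGroup 2 V := fun k => ⟨1, Subtype.ext (by
    rw [pow_one, pow_two]; exact hVsq _ k.2)⟩
  have hb : IsEquiv2 (secAct hfWs V hVc') (secAct hfWs V hVc') (secAct hfQs Z hZc) b := by
    intro x v w
    obtain ⟨g, rfl⟩ := hfQs x
    refine Additive.toMul.injective (Subtype.ext ?_)
    have hconj : ∀ {a : Q}, a ∈ S → g * a * g⁻¹ ∈ S := fun ha =>
      (inferInstance : fQ.ker.Normal).conj_mem _ ha g
    have hlift : ∀ u : Additive V, ((g * sec _ (u.toMul : V).2 * g⁻¹ : Q) : Q ⧸ Φ) =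
        ((secAct hfWs V hVc' (fQ g) u).toMul : V) := fun u => by
      rw [show fQ g = fW (g : Q ⧸ Φ) from rfl, secAct_apply, QuotientGroup.mk_mul,
        QuotientGroup.mk_mul, QuotientGroup.mk_inv, hsec]
    show (((c _ _).toMul : Z) : Q) = (((secAct hfQs Z hZc (fQ g) (c v w)).toMul : Z) : Q)
    rw [secAct_apply, hwd _ _ _ _ (hconj (hsecS _ _)) (hconj (hsecS _ _)) (hlift v) (hlift w)]
    exact (map_commutatorElement (MulAut.conj g).toMonoidHom _ _).symm
  have hz := hP (Additive V) (Additive Z) _ _ b (secAct_fpf hfWs V hVc' hCW hV2)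
    (secAct_fpf hfQs Z hZc (hC.quotient (h2.to_le hle)) (hS2.to_le hZS))
    (fun a => Additive.toMul.injective (Subtype.ext (hVsq _ a.toMul.2)))
    (fun a => Additive.toMul.injective (Subtype.ext (by
      show ((a.toMul : Z) : Q) * ((a.toMul : Z) : Q) = 1
      rw [← pow_two]; exact hZp _ a.toMul.2))) hb
  refine hZne (eq_bot_iff.mpr ((commutator_le).mpr fun r hr s hs => mem_bot.mpr ?_))
  have := congrArg (fun a : Additive Z => ((a.toMul : Z) : Q))
    (hz (Additive.ofMul ⟨(r : Q ⧸ Φ), show fQ r = 1 from hr⟩) (Additive.ofMul ⟨(s : Q ⧸ Φ), show fQ s = 1 from hs⟩))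
  rw [← hwd (Additive.ofMul ⟨(r : Q ⧸ Φ), show fQ r = 1 from hr⟩)
    (Additive.ofMul ⟨(s : Q ⧸ Φ), show fQ s = 1 from hs⟩) r s hr hs rfl rfl]
  exact this

end Cfsg.Agent.CIT38
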